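import Cfsg.Agent.H209.IF.Defs
import Cfsg.Agent.H209.IF.Row
import Cfsg.Prelude.Def_Classification2

/-!
# S5719: transport of `IF` along isomorphisms, rows from models (driver helper209)

* `IF.map` : `IF A Γ → IF (A.map e) (Γ.map (MulAut.congr e))`;
* `Kill T` : no `IF` in `T`; `KillE`, `KillO` : `A` of even / odd order; `Kill.congr`;
* `row_psl_of`, `row_psp_of`, `row_psu_of`, ... : the rows from the models.
-/

set_option autoImplicit false
set_option linter.unusedSectionVars false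

namespace Cfsg.Agent.H209.Fxy

open MulAction Subgroup Cfsg Cfsg.Agent.H284

variable {T T' : Type*} [Group T] [Group T'] {A : Subgroup T} {Γ : Subgroup (MulAut T)}

theorem congr_apply (e : T ≃* T') (σ : MulAut T) (x : T) : MulAut.congr e σ (e x) = e (σ x) := by
  simp [MulAut.congr]

theorem congr_apply' (e : T ≃* T') (σ : MulAut T) (y : T') : e.symm (MulAut.congr e σ y) = σ (e.symm y) := by
  simp [MulAut.congr]

theorem mem_map_e (e : T ≃* T') {y : T'} : y ∈ A.map e.toMonoidHom ↔ e.symm y ∈ A := by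
  constructor
  · rintro ⟨x, hx, rfl⟩
    have : e.symm (e x) ∈ A := by rwa [MulEquiv.symm_apply_apply]
    exact this
  · intro h
    exact ⟨e.symm y, h, e.apply_symm_apply y⟩

theorem exists_cosetEquiv (e : T ≃* T') (A : Subgroup T) :
    ∃ φ : (T ⧸ A) ≃ (T' ⧸ A.map e.toMonoidHom), ∀ x : T, φ (x : T ⧸ A) = (e x : T' ⧸ A.map e.toMonoidHom) := by
  refine ⟨Quotient.congr e.toEquiv ?_, fun x => rfl⟩
  intro a b
  change (QuotientGroup.leftRel A) a b ↔ (QuotientGroup.leftRel (A.map e.toMonoidHom)) (e a) (e b)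
  rw [QuotientGroup.leftRel_apply, QuotientGroup.leftRel_apply, mem_map_e, map_mul, map_inv, MulEquiv.symm_apply_apply,
    MulEquiv.symm_apply_apply]

theorem fx_map (e : T ≃* T') (σ : MulAut T) :
    fx (A.map e.toMonoidHom) (MulAut.congr e σ) = fx A σ := by
  obtain ⟨φ, hφ⟩ := exists_cosetEquiv e A
  have h1 : φ '' fixSet A σ = fixSet (A.map e.toMonoidHom) (MulAut.congr e σ) := by
    ext c
    constructor
    · rintro ⟨_, ⟨y, rfl, hy⟩, rfl⟩
      refine ⟨e y, (hφ y).symm, ?_⟩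
      rw [congr_apply, mem_map_e, map_mul, map_inv, MulEquiv.symm_apply_apply, MulEquiv.symm_apply_apply]
      exact hy
    · rintro ⟨y, rfl, hy⟩
      refine ⟨(e.symm y : T ⧸ A), ⟨e.symm y, rfl, ?_⟩, ?_⟩
      · rw [mem_map_e, map_mul, map_inv, congr_apply'] at hy
        exact hy
      · rw [hφ, MulEquiv.apply_symm_apply]
  rw [fx, fx, ← h1, Set.ncard_image_of_injective _ φ.injective]

/-- **Transport.** -/
theorem IF.map (h : IF A Γ) (e : T ≃* T') : IF (A.map e.toMonoidHom) (Γ.map (MulAut.congr e).toMonoidHom) := by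
  have hidx : (A.map e.toMonoidHom).index = A.index := by
    obtain ⟨φ, -⟩ := exists_cosetEquiv e A
    rw [Subgroup.index, Subgroup.index, Nat.card_congr φ]
  have hord : ∀ σ : MulAut T, orderOf ((MulAut.congr e) σ) = orderOf σ := fun σ =>
    MulEquiv.orderOf_eq _ σ
  refine ⟨?_, ?_, ?_, ?_, ?_, ?_, ?_, ?_⟩
  · intro B hAB hB
    have h1 : A ≤ B.comap e.toMonoidHom := fun a ha => hAB ⟨a, ha, rfl⟩
    have h2 : (B.comap e.toMonoidHom).map e.toMonoidHom = B :=
      Subgroup.map_comap_eq_self_of_surjective e.surjective B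
    rcases h.max (B.comap e.toMonoidHom) h1 (by
      intro σ hσ b hb
      have h3 := hB _ ⟨σ, hσ, rfl⟩ (e b) hb
      have h4 : (MulAut.congr e).toMonoidHom σ (e b) = e (σ b) := congr_apply e σ b
      rw [h4] at h3
      exact h3) with h3 | h3
    · left
      rw [← h2, h3]
    · right
      rw [← h2, h3]
      exact Subgroup.map_top_of_surjective _ e.surjective
  · intro h1
    apply h.ne_top
    rw [← Subgroup.index_eq_one, ← hidx, h1, Subgroup.index_top]
  · intro h1
    exact h.ne_bot ((Subgroup.map_eq_bot_iff_of_injective A e.injective).1 h1)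
  · intro a
    have h0 := h.conj (e.symm a)
    rw [mem_map_e e]
    refine Iff.trans ?_ h0
    constructor
    · rintro ⟨σ, hσ, he⟩
      have h1 : σ = MulAut.conj (e.symm a) := by
        ext x
        apply e.injective
        rw [← congr_apply e σ x]
        have h2 : MulAut.congr e σ = MulAut.conj a := he
        rw [h2, MulAut.conj_apply, MulAut.conj_apply, map_mul, map_mul, map_inv, MulEquiv.apply_symm_apply]
      rwa [← h1]
    · intro h1
      refine ⟨_, h1, ?_⟩
      ext x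
      have h2 := congr_apply e (MulAut.conj (e.symm a)) (e.symm x)
      rw [MulEquiv.apply_symm_apply, MulAut.conj_apply, map_mul, map_mul, map_inv, MulEquiv.apply_symm_apply,
        MulEquiv.apply_symm_apply] at h2
      exact h2
  · rintro _ ⟨σ, hσ, rfl⟩ a
    have h1 : (MulAut.congr e).toMonoidHom σ a = MulAut.congr e σ a := rfl
    rw [mem_map_e e, mem_map_e e, h1, congr_apply']
    exact h.inv σ hσ _
  · rw [hidx]
    exact h.big
  · rintro _ ⟨σ, hσ, rfl⟩ ho
    have h1 : (MulAut.congr e).toMonoidHom σ = MulAut.congr e σ := rfl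
    rw [h1] at ho ⊢
    rw [hord] at ho
    rw [fx_map, hidx]
    exact h.small σ hσ ho
  · obtain ⟨σ, hσ, ho, h3⟩ := h.ex
    refine ⟨_, ⟨σ, hσ, rfl⟩, ?_, ?_⟩
    · exact (hord σ).trans ho
    · have h1 : (MulAut.congr e).toMonoidHom σ = MulAut.congr e σ := rfl
      rw [h1, fx_map]
      exact h3

/-- No counterexample in `T`. -/
def Kill (T : Type*) [Group T] : Prop := ∀ (A : Subgroup T) (Γ : Subgroup (MulAut T)), IF A Γ → False

/-- No counterexample in `T` with `A` of even order. -/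
def KillE (T : Type*) [Group T] : Prop :=
  ∀ (A : Subgroup T) (Γ : Subgroup (MulAut T)), IF A Γ → (∃ t ∈ A, orderOf t = 2) → False

/-- No counterexample in `T` with `A` of odd order. -/
def KillO (T : Type*) [Group T] : Prop :=
  ∀ (A : Subgroup T) (Γ : Subgroup (MulAut T)), IF A Γ → Odd (Nat.card A) → False

theorem Kill.congr (e : T ≃* T') (h : Kill T) : Kill T' := fun _ _ hA => h _ _ (hA.map e.symm)

theorem Kill.of [Finite T] (hE : KillE T) (hO : KillO T) : Kill T := by
  intro A Γ h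
  by_cases hev : 2 ∣ Nat.card A
  · have : Fact (Nat.Prime 2) := ⟨Nat.prime_two⟩
    obtain ⟨t, ht⟩ := exists_prime_orderOf_dvd_card' 2 hev
    exact hE A Γ h ⟨t, t.2, by rw [← ht, orderOf_coe]⟩
  · exact hO A Γ h (Nat.not_even_iff_odd.1 fun h1 => hev h1.two_dvd)

section rows

variable {P : ∀ (T : Type) [Group T], Prop}

/-- A row from a model: `K` is the property of the parameters. -/
theorem Row.of_kill (h : ∀ (T : Type) [Group T] [Finite T] [IsSimpleGroup T], ¬ IsMulCommutative T → P T → Kill T) :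
    Row P := fun T _ _ _ hn hP A Γ hA => h T hn hP A Γ hA

theorem row_alt_of (h : ∀ n : ℕ, 5 ≤ n → Kill (alternatingGroup (Fin n))) : Row fun T => IsAlternating T := by
  rintro T _ _ _ - ⟨n, hn, ⟨e⟩⟩ A Γ hA
  exact Kill.congr e.symm (h n hn) A Γ hA

theorem row_psl_of (h : ∀ (F : Type) [Field F] [Fintype F] (n : ℕ), 2 ≤ n → (n = 2 → 4 ≤ Fintype.card F) →
      IsSimpleGroup (Matrix.ProjectiveSpecialLinearGroup (Fin n) F) →
      Kill (Matrix.ProjectiveSpecialLinearGroup (Fin n) F)) : Row fun T => IsPSL T := by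
  rintro T _ _ _ - ⟨F, _, _, n, hn, h2, ⟨e⟩⟩ A Γ hA
  exact Kill.congr e.symm (h F n hn h2 ((MulEquiv.isSimpleGroup_congr e).1 inferInstance)) A Γ hA

theorem row_psp_of (h : ∀ (F : Type) [Field F] [Fintype F] (m : ℕ), 2 ≤ m → (m = 2 → 3 ≤ Fintype.card F) →
      IsSimpleGroup (PSp m F) → Kill (PSp m F)) : Row fun T => IsPSp T := by
  rintro T _ _ _ - ⟨F, _, _, n, hn, h2, ⟨e⟩⟩ A Γ hA
  exact Kill.congr e.symm (h F n hn h2 ((MulEquiv.isSimpleGroup_congr e).1 inferInstance)) A Γ hA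

theorem row_psu_of (h : ∀ (F : Type) [Field F] [Fintype F] (n q : ℕ), Fintype.card F = q ^ 2 → 3 ≤ n →
      ¬ (n = 3 ∧ q = 2) → IsSimpleGroup (PSU n F q) → Kill (PSU n F q)) : Row fun T => IsPSU T := by
  rintro T _ _ _ - ⟨F, _, _, n, q, hc, hn, h2, ⟨e⟩⟩ A Γ hA
  exact Kill.congr e.symm (h F n q hc hn h2 ((MulEquiv.isSimpleGroup_congr e).1 inferInstance)) A Γ hA

theorem row_oodd_of (h : ∀ (F : Type) [Field F] [Fintype F] (m : ℕ), 3 ≤ m → Odd (Fintype.card F) →
      IsSimpleGroup (POmega F (quadFormOdd m F)) → Kill (POmega F (quadFormOdd m F))) :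
    Row fun T => IsPOmegaOdd T := by
  rintro T _ _ _ - ⟨F, _, _, m, hm, h2, ⟨e⟩⟩ A Γ hA
  exact Kill.congr e.symm (h F m hm h2 ((MulEquiv.isSimpleGroup_congr e).1 inferInstance)) A Γ hA

theorem row_oplus_of (h : ∀ (F : Type) [Field F] [Fintype F] (m : ℕ), 4 ≤ m →
      IsSimpleGroup (POmega F (quadFormPlus m F)) → Kill (POmega F (quadFormPlus m F))) :
    Row fun T => IsPOmegaPlus T := by
  rintro T _ _ _ - ⟨F, _, _, m, hm, ⟨e⟩⟩ A Γ hA
  exact Kill.congr e.symm (h F m hm ((MulEquiv.isSimpleGroup_congr e).1 inferInstance)) A Γ hA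

theorem row_ominus_of (h : ∀ (F : Type) [Field F] [Fintype F] (m : ℕ) (a b : F), 4 ≤ m →
      (∀ z₁ z₂ : F, z₁ ^ 2 + a * z₁ * z₂ + b * z₂ ^ 2 = 0 → z₁ = 0 ∧ z₂ = 0) →
      IsSimpleGroup (POmega F (quadFormMinus (m - 1) F a b)) → Kill (POmega F (quadFormMinus (m - 1) F a b))) :
    Row fun T => IsPOmegaMinus T := by
  rintro T _ _ _ - ⟨F, _, _, m, a, b, hm, hz, ⟨e⟩⟩ A Γ hA
  exact Kill.congr e.symm (h F m a b hm hz ((MulEquiv.isSimpleGroup_congr e).1 inferInstance)) A Γ hA

end rows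

end Cfsg.Agent.H209.Fxy
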